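import Mathlib
import Cfsg.Agent.SylEight.Table

/-!
A two-subgroup of the symmetric group of degree eight meeting all its conjugates.
-/

set_option autoImplicit false

namespace CfsgLib.SylEight

open Equiv

/-- A digit. -/
def dig (c : Nat) (a : Fin 8) : Fin 8 := ⟨c / 8 ^ a.val % 8, Nat.mod_lt _ (by norm_num)⟩

/-- The function preserves pairs and blocks. -/
def keepB (f : Fin 8 → Fin 8) : Bool :=
  (List.finRange 8).all fun a => (List.finRange 8).all fun b =>
    (!(a.val / 2 == b.val / 2) || ((f a).val / 2 == (f b).val / 2)) &&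
    (!(a.val / 4 == b.val / 4) || ((f a).val / 4 == (f b).val / 4))

/-- The property of preserving pairs and blocks. -/
def Keep (f : Fin 8 → Fin 8) : Prop :=
  ∀ a b : Fin 8, (a.val / 2 = b.val / 2 → (f a).val / 2 = (f b).val / 2) ∧
    (a.val / 4 = b.val / 4 → (f a).val / 4 = (f b).val / 4)

theorem keep_of_keepB {f : Fin 8 → Fin 8} (h : keepB f = true) : Keep f := by
  intro a b
  simp only [keepB, List.all_eq_true, List.mem_finRange, forall_const, Bool.and_eq_true, Bool.or_eq_true,
    Bool.not_eq_true', beq_eq_false_iff_ne, beq_iff_eq, ne_eq] at h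
  obtain ⟨h1, h2⟩ := h a b
  exact ⟨fun e => h1.resolve_left (not_not.2 e), fun e => h2.resolve_left (not_not.2 e)⟩

/-- The stabiliser of the pairs and blocks. -/
def stab : Subgroup (Perm (Fin 8)) where
  carrier := {g | Keep g}
  one_mem' := fun a b => ⟨id, id⟩
  mul_mem' := fun {g h} hg hh a b =>
    ⟨fun e => (hg _ _).1 ((hh a b).1 e), fun e => (hg _ _).2 ((hh a b).2 e)⟩
  inv_mem' := fun {g} hg => by
    show Keep ⇑(g⁻¹ : Perm (Fin 8))
    have h : ∃ k : ℕ, g⁻¹ = g ^ k := by
      refine ⟨orderOf g - 1, inv_eq_of_mul_eq_one_right ?_⟩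
      rw [← pow_succ', Nat.sub_add_cancel (orderOf_pos g), pow_orderOf_eq_one]
    obtain ⟨k, hk⟩ := h
    rw [hk]
    clear hk
    induction k with
    | zero => exact fun a b => ⟨id, id⟩
    | succ k ih =>
      rw [pow_succ]
      exact fun a b => ⟨fun e => (ih _ _).1 ((hg a b).1 e), fun e => (ih _ _).2 ((hg a b).2 e)⟩

theorem quad_facts : ∀ π : Fin 4 → Fin 4, Function.Surjective π →
    (∀ k l : Fin 4, k.val / 2 = l.val / 2 → (π k).val / 2 = (π l).val / 2) → ∀ k, π (π (π (π k))) = k := by
  decide +kernel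

theorem pair_facts : ∀ a b : Fin 8, a.val / 2 = b.val / 2 → b = a ∨ b.val = (if a.val % 2 = 0 then a.val + 1 else a.val - 1) := by
  decide

theorem pow_eight {g : Perm (Fin 8)} (hg : g ∈ stab) : g ^ 8 = 1 := by
  obtain ⟨π, hπ⟩ : ∃ π : Fin 4 → Fin 4, ∀ a : Fin 8, (g a).val / 2 = (π ⟨a.val / 2, by omega⟩).val :=
    ⟨fun k => ⟨(g ⟨2 * k.val, by omega⟩).val / 2, by omega⟩,
      fun a => (hg a ⟨2 * (a.val / 2), by omega⟩).1 (by simp only; omega)⟩
  have hsurj : Function.Surjective π := fun k => by
    obtain ⟨a, ha⟩ := g.surjective ⟨2 * k.val, by omega⟩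
    exact ⟨⟨a.val / 2, by omega⟩, Fin.ext (by rw [← hπ, ha]; simp only; omega)⟩
  have hblk : ∀ k l : Fin 4, k.val / 2 = l.val / 2 → (π k).val / 2 = (π l).val / 2 := fun k l e => by
    have h1 := (hg ⟨2 * k.val, by omega⟩ ⟨2 * l.val, by omega⟩).2 (by simp only; omega)
    have h2 := hπ ⟨2 * k.val, by omega⟩
    have h3 := hπ ⟨2 * l.val, by omega⟩
    simp only [show 2 * k.val / 2 = k.val by omega, show 2 * l.val / 2 = l.val by omega, Fin.eta] at h2 h3
    omega
  have h4 : ∀ a : Fin 8, ((g ^ 4) a).val / 2 = a.val / 2 := fun a => by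
    have e : ∀ b : Fin 8, (⟨(g b).val / 2, by omega⟩ : Fin 4) = π ⟨b.val / 2, by omega⟩ := fun b => Fin.ext (hπ b)
    have h := congrArg Fin.val (quad_facts π hsurj hblk ⟨a.val / 2, by omega⟩)
    rw [← e, ← e, ← e, ← e] at h
    simpa [pow_succ] using h
  refine Equiv.ext fun a => ?_
  rw [show g ^ 8 = g ^ 4 * g ^ 4 from pow_add g 4 4, Perm.mul_apply, Perm.one_apply]
  rcases pair_facts a ((g ^ 4) a) (h4 a).symm with h | h
  · rw [h, h]
  · have h1 := pair_facts _ _ (h4 ((g ^ 4) a)).symm
    rcases h1 with h1 | h1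
    · rw [(g ^ 4).injective h1, (g ^ 4).injective h1]
    · refine Fin.ext ?_
      rw [h1, h]
      split_ifs <;> omega

theorem isPGroup_stab : IsPGroup 2 stab := fun g => ⟨3, Subtype.ext (pow_eight g.2)⟩

/-- The check of one table row. -/
def rowOk (e : Nat × Nat × Nat × List Nat) : Bool :=
  ((List.finRange 8).all fun a => (dig e.2.1 (dig e.1 a) == a) && (dig e.1 (dig e.2.1 a) == a)) &&
  keepB (dig e.2.2.1) && ((List.finRange 8).all fun a => dig e.2.2.1 (dig e.2.2.1 a) == a) &&
  ((List.finRange 8).any fun a => dig e.2.2.1 a != a) &&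
  keepB (fun a => dig e.2.1 (dig e.2.2.1 (dig e.1 a))) &&
  ((List.finRange 7).all fun s =>
    match table[e.2.2.2.getD s.val 0]? with
    | some f => keepB (fun a => dig f.2.1 (Equiv.swap s.castSucc s.succ (dig e.1 a)))
    | none => false)

theorem table_ok : table.all rowOk = true := by decide +kernel

theorem first_ok : (match table[0]? with | some e => keepB (dig e.2.1) | none => false) = true := by decide +kernel

theorem exists_witness (y : Perm (Fin 8)) : ∃ h ∈ stab, h ≠ 1 ∧ y⁻¹ * h * y ∈ stab := by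
  have row : ∀ e ∈ table, rowOk e = true := List.all_eq_true.1 table_ok
  let mk : (e : Nat × Nat × Nat × List Nat) → e ∈ table → Perm (Fin 8) := fun e he =>
    { toFun := dig e.1
      invFun := dig e.2.1
      left_inv := fun a => by
        have := row e he
        simp only [rowOk, Bool.and_eq_true, List.all_eq_true, List.mem_finRange, forall_const, beq_iff_eq] at this
        exact (this.1.1.1.1.1 a).1
      right_inv := fun a => by
        have := row e he
        simp only [rowOk, Bool.and_eq_true, List.all_eq_true, List.mem_finRange, forall_const, beq_iff_eq] at this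
        exact (this.1.1.1.1.1 a).2 }
  have cover : ∀ σ : Perm (Fin 8), ∃ e, ∃ he : e ∈ table, (mk e he)⁻¹ * σ ∈ stab := by
    intro σ
    have hm : σ ∈ Submonoid.closure (Set.range fun i : Fin 7 => Equiv.swap i.castSucc i.succ) := by
      rw [Perm.mclosure_swap_castSucc_succ 7]; trivial
    induction hm using Submonoid.closure_induction_left with
    | one =>
      have h0 := first_ok
      generalize hz : table[0]? = o at h0
      cases o with
      | none => simp at h0
      | some e => exact ⟨e, List.mem_of_getElem? hz, keep_of_keepB h0⟩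
    | mul_left s hs τ _ ih =>
      obtain ⟨i, rfl⟩ := hs
      obtain ⟨e, he, hτ⟩ := ih
      have hr := row e he
      simp only [rowOk, Bool.and_eq_true, List.all_eq_true, List.mem_finRange, forall_const] at hr
      have hs := hr.2 i
      generalize hz : table[e.2.2.2.getD i.val 0]? = o at hs
      cases o with
      | none => simp at hs
      | some f =>
        refine ⟨f, List.mem_of_getElem? hz, ?_⟩
        have h1 : (mk f (List.mem_of_getElem? hz))⁻¹ * Equiv.swap i.castSucc i.succ * mk e he ∈ stab := keep_of_keepB hs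
        have h2 := stab.mul_mem h1 hτ
        simpa [mul_assoc] using h2
  obtain ⟨e, he, hy⟩ := cover y
  have hr := row e he
  simp only [rowOk, Bool.and_eq_true, List.all_eq_true, List.any_eq_true, List.mem_finRange, forall_const, true_and,
    bne_iff_ne, beq_iff_eq] at hr
  obtain ⟨⟨⟨⟨⟨-, hk⟩, hinv⟩, a, ha⟩, hk2⟩, -⟩ := hr
  let w : Perm (Fin 8) := ⟨dig e.2.2.1, dig e.2.2.1, hinv, hinv⟩
  refine ⟨w, keep_of_keepB hk, fun h => ha (congrFun (congrArg DFunLike.coe h) a), ?_⟩
  have h1 : (mk e he)⁻¹ * w * mk e he ∈ stab := keep_of_keepB hk2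
  have h2 := stab.mul_mem (stab.mul_mem (stab.inv_mem hy) h1) hy
  simpa [mul_assoc] using h2

end CfsgLib.SylEight
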